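import Cfsg.Agent.H439.CC.Defs

/-!
# S4884, F: fixed points on cosets and stable flags

* `sum_pf_eq_fl` : the fixed points of `φ g` on the cosets of the stabilizers `P j` of the standard flags with the set `K` of
  dimensions are counted by the `g`-stable admissible flags, if every admissible flag of type `K` is conjugate to exactly
  one of the standard ones.
-/

set_option autoImplicit false
set_option linter.unusedSectionVars false

open Module

namespace Cfsg.Agent.H139.CC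

open Cfsg.Agent.H439.CC

section

variable {F : Type*} [Field F] {V : Type*} [AddCommGroup V] [Module F V] [Module.Finite F V]
  {Adm : Submodule F V → Prop} {Gh S : Type*} [Group Gh] [Group S] {act : Gh →* (V ≃ₗ[F] V)} {φ : Gh →* S}

/-- the `K`-flags of admissible subspaces stable under `x` -/
def TF (Adm : Submodule F V → Prop) (x : V ≃ₗ[F] V) (K : Finset ℕ) : Type _ :=
  {U : K → Submodule F V // (∀ k : K, finrank F (U k) = k) ∧ Monotone U ∧ (∀ k, Adm (U k)) ∧
    ∀ k, (U k).map (x : V →ₗ[F] V) = U k}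

theorem map_mul_act (a b : V ≃ₗ[F] V) (U : Submodule F V) :
    U.map ((a * b : V ≃ₗ[F] V) : V →ₗ[F] V) = (U.map (b : V →ₗ[F] V)).map (a : V →ₗ[F] V) := by
  rw [← Submodule.map_comp]
  rfl

theorem map_one_act (U : Submodule F V) : U.map ((1 : V ≃ₗ[F] V) : V →ₗ[F] V) = U := Submodule.map_id U

theorem map_act_eq_iff {a : V ≃ₗ[F] V} {U U' : Submodule F V} :
    U.map (a : V →ₗ[F] V) = U'.map (a : V →ₗ[F] V) ↔ U = U' :=
  (Submodule.map_injective_of_injective a.injective).eq_iff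

open Classical in
theorem card_TF (bot : Adm ⊥) (x : V ≃ₗ[F] V) {K : Finset ℕ} (h0 : 0 ∉ K) :
    Nat.card (TF Adm x K) = fl (rkS Adm {x}) (botS bot {x}) K := by
  have hb : rkS Adm {x} (botS bot {x}) = 0 := finrank_bot F V
  -- the members of the chain
  let mk : ∀ U : TF Adm x K, K → StP Adm {x} := fun U k => ⟨U.1 k, U.2.2.2.1 k, fun y hy => by
    rw [Set.mem_singleton_iff] at hy
    subst hy
    exact U.2.2.2.2 k⟩
  have hrk : ∀ (U : TF Adm x K) (k : K), rkS Adm {x} (mk U k) = k := fun U k => U.2.1 k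
  refine Nat.card_eq_of_bijective (fun U : TF Adm x K => (⟨Finset.univ.image (mk U), ?_, ?_, ?_⟩ :
    {c : Finset (StP Adm {x}) // IsChain (· ≤ ·) (c : Set (StP Adm {x})) ∧ (∀ y ∈ c, botS bot {x} < y) ∧
      c.image (fun y => rkS Adm {x} y - rkS Adm {x} (botS bot {x})) = K})) ⟨?_, ?_⟩
  · rintro _ hy _ hz -
    obtain ⟨k, -, rfl⟩ := Finset.mem_image.1 (Finset.mem_coe.1 hy)
    obtain ⟨l, -, rfl⟩ := Finset.mem_image.1 (Finset.mem_coe.1 hz)
    rcases le_total k l with h | h
    · exact Or.inl (U.2.2.1 h)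
    · exact Or.inr (U.2.2.1 h)
  · intro y hy
    obtain ⟨k, -, rfl⟩ := Finset.mem_image.1 hy
    refine lt_of_le_of_ne (show (⊥ : Submodule F V) ≤ _ from bot_le) ?_
    intro h
    have h1 := hrk U k
    rw [← h, hb] at h1
    exact h0 (h1 ▸ k.2)
  · ext k
    rw [hb, Finset.image_image, Finset.mem_image]
    constructor
    · rintro ⟨l, -, hl⟩
      rw [Function.comp_apply, Nat.sub_zero, hrk] at hl
      rw [← hl]
      exact l.2
    · intro hk
      exact ⟨⟨k, hk⟩, Finset.mem_univ _, by rw [Function.comp_apply, Nat.sub_zero, hrk]⟩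
  · intro U U' h
    have h1 : Finset.univ.image (mk U) = Finset.univ.image (mk U') := congrArg Subtype.val h
    apply Subtype.ext
    funext k
    have h2 : mk U k ∈ Finset.univ.image (mk U') := by
      rw [← h1]
      exact Finset.mem_image_of_mem _ (Finset.mem_univ _)
    obtain ⟨l, -, hl⟩ := Finset.mem_image.1 h2
    have h3 : l = k := by
      apply Subtype.ext
      rw [← hrk U' l, ← hrk U k, hl]
    subst h3
    exact (congrArg Subtype.val hl).symm
  · rintro ⟨c, hc1, hc2, hc3⟩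
    have hex : ∀ k : K, ∃ y ∈ c, rkS Adm {x} y = k := by
      intro k
      have h1 : (k : ℕ) ∈ c.image (fun y => rkS Adm {x} y - rkS Adm {x} (botS bot {x})) := by
        rw [hc3]
        exact k.2
      obtain ⟨y, hy, hy'⟩ := Finset.mem_image.1 h1
      rw [hb, Nat.sub_zero] at hy'
      exact ⟨y, hy, hy'⟩
    choose y hy hyk using hex
    have hmono : ∀ {a b : StP Adm {x}}, a ∈ c → b ∈ c → rkS Adm {x} a ≤ rkS Adm {x} b → a ≤ b := by
      intro a b ha hb' hab
      by_cases hne : a = b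
      · rw [hne]
      · rcases hc1 ha hb' hne with h | h
        · exact h
        · have h1 : (b.1 : Submodule F V) = a.1 := Submodule.eq_of_le_of_finrank_le h hab
          exact absurd (Subtype.ext h1).symm hne
    have hinj : ∀ {a b : StP Adm {x}}, a ∈ c → b ∈ c → rkS Adm {x} a = rkS Adm {x} b → a = b := fun ha hb' hab =>
      le_antisymm (hmono ha hb' hab.le) (hmono hb' ha hab.ge)
    refine ⟨⟨fun k => (y k).1, fun k => hyk k, fun k l hkl => hmono (hy k) (hy l) (by rw [hyk, hyk]; exact hkl),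
      fun k => (y k).2.1, fun k => (y k).2.2 x rfl⟩, Subtype.ext ?_⟩
    show Finset.univ.image _ = c
    ext z
    rw [Finset.mem_image]
    constructor
    · rintro ⟨k, -, rfl⟩
      exact hy k
    · intro hz
      have h1 : rkS Adm {x} z ∈ K := by
        rw [← hc3, Finset.mem_image]
        exact ⟨z, hz, by rw [hb, Nat.sub_zero]⟩
      refine ⟨⟨_, h1⟩, Finset.mem_univ _, ?_⟩
      exact hinj (hy ⟨_, h1⟩) hz (hyk ⟨_, h1⟩)

/-- **Fixed points on cosets and stable flags.** -/
theorem sum_pf_eq_fl [Finite S] (bot : Adm ⊥) (surj : Function.Surjective φ)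
    (admS : ∀ (g : Gh) (U : Submodule F V), Adm U → Adm (U.map (act g : V →ₗ[F] V))) {κ : Type*} [Fintype κ]
    {P : κ → Subgroup S} {K : Finset ℕ} (h0 : 0 ∉ K) (U : κ → ℕ → Submodule F V)
    (rk : ∀ j, ∀ k ∈ K, finrank F (U j k) = k) (mono : ∀ j, ∀ k ∈ K, ∀ l ∈ K, k ≤ l → U j k ≤ U j l)
    (adm : ∀ j, ∀ k ∈ K, Adm (U j k))
    (stab : ∀ j (g : Gh), φ g ∈ P j ↔ ∀ k ∈ K, (U j k).map (act g : V →ₗ[F] V) = U j k)
    (cov : ∀ U' : ℕ → Submodule F V, (∀ k ∈ K, finrank F (U' k) = k) → (∀ k ∈ K, ∀ l ∈ K, k ≤ l → U' k ≤ U' l) →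
      (∀ k ∈ K, Adm (U' k)) → ∃ (j : κ) (g : Gh), ∀ k ∈ K, (U j k).map (act g : V →ₗ[F] V) = U' k)
    (dis : ∀ (j j' : κ) (g : Gh), (∀ k ∈ K, (U j k).map (act g : V →ₗ[F] V) = U j' k) → j = j') (g : Gh) :
    ∑ j, pf (P j) (φ g) = fl (rkS Adm {act g}) (botS bot {act g}) K := by
  classical
  rw [← card_TF bot (act g) h0]
  have hsig : ∑ j, pf (P j) (φ g) = Nat.card (Σ j, {x : S ⧸ P j // φ g • x = x}) := by
    rw [Nat.card_sigma]
    rfl
  rw [hsig]
  choose r hr using surj
  have hmem : ∀ j (a b : Gh), (QuotientGroup.mk (φ a) : S ⧸ P j) = QuotientGroup.mk (φ b) ↔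
      ∀ k ∈ K, (U j k).map (act a : V →ₗ[F] V) = (U j k).map (act b : V →ₗ[F] V) := by
    intro j a b
    rw [QuotientGroup.eq, ← map_inv, ← map_mul, stab]
    refine forall₂_congr fun k _ => ?_
    rw [map_mul, map_mul_act, map_inv, ← map_act_eq_iff (a := act a), ← map_mul_act, mul_inv_cancel, map_one_act]
    exact eq_comm
  have hout : ∀ j (x : S ⧸ P j), (QuotientGroup.mk (φ (r x.out)) : S ⧸ P j) = x := fun j x => by
    rw [hr]
    exact QuotientGroup.out_eq' x
  refine Nat.card_eq_of_bijective (fun x : Σ j, {x : S ⧸ P j // φ g • x = x} =>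
    (⟨fun k => (U x.1 k).map (act (r x.2.1.out) : V →ₗ[F] V), fun k => ?_, fun k l hkl => ?_, fun k => ?_, fun k => ?_⟩ :
      TF Adm (act g) K)) ⟨?_, ?_⟩
  · rw [LinearEquiv.finrank_map_eq]
    exact rk _ _ k.2
  · exact Submodule.map_mono (mono _ _ k.2 _ l.2 hkl)
  · exact admS _ _ (adm _ _ k.2)
  · have h1 := x.2.2
    rw [← hout x.1 x.2.1] at h1
    have h2 : (QuotientGroup.mk (φ (g * r x.2.1.out)) : S ⧸ P x.1) = QuotientGroup.mk (φ (r x.2.1.out)) := by
      rw [map_mul]
      exact h1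
    have h3 := (hmem _ _ _).1 h2 k k.2
    rwa [map_mul, map_mul_act] at h3
  · rintro ⟨j, x, hx⟩ ⟨j', x', hx'⟩ h
    have h1 : ∀ k ∈ K, (U j k).map (act (r x.out) : V →ₗ[F] V) = (U j' k).map (act (r x'.out) : V →ₗ[F] V) := by
      intro k hk
      exact congrFun (congrArg Subtype.val h) ⟨k, hk⟩
    have h2 : j = j' := dis j j' ((r x'.out)⁻¹ * r x.out) fun k hk => by
      rw [map_mul, map_mul_act, map_inv, h1 k hk, ← map_mul_act, inv_mul_cancel, map_one_act]
    subst h2
    have h3 := (hmem j _ _).2 h1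
    rw [hout, hout] at h3
    subst h3
    rfl
  · rintro ⟨U', hU1, hU2, hU3, hU4⟩
    obtain ⟨j, a, ha⟩ := cov (fun k => if h : k ∈ K then U' ⟨k, h⟩ else ⊥) (fun k hk => by
      rw [dif_pos hk]; exact hU1 ⟨k, hk⟩) (fun k hk l hl hkl => by
      rw [dif_pos hk, dif_pos hl]; exact hU2 hkl) (fun k hk => by rw [dif_pos hk]; exact hU3 _)
    have ha' : ∀ k (hk : k ∈ K), (U j k).map (act a : V →ₗ[F] V) = U' ⟨k, hk⟩ := by
      intro k hk
      rw [ha k hk, dif_pos hk]
    have hfix : φ g • (QuotientGroup.mk (φ a) : S ⧸ P j) = QuotientGroup.mk (φ a) := by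
      have h1 : (QuotientGroup.mk (φ (g * a)) : S ⧸ P j) = QuotientGroup.mk (φ a) := by
        rw [hmem]
        intro k hk
        rw [map_mul, map_mul_act, ha' k hk, hU4]
      rw [map_mul] at h1
      exact h1
    refine ⟨⟨j, ⟨QuotientGroup.mk (φ a), hfix⟩⟩, Subtype.ext (funext fun k => ?_)⟩
    have h1 := (hmem j _ _).1 (hout j (QuotientGroup.mk (φ a))) k k.2
    exact h1.trans (ha' k k.2)

end

end Cfsg.Agent.H139.CC
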