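import Cfsg.Agent.H139.PF.Lin
import Cfsg.Agent.H139.CC.Fix

/-!
# S4884, F-A: the flags for `PSL_{n+1}(q)`

* `exists_flg` : a partial flag is contained in a complete flag;
* `flags_psl` : the structure `Flags` for `PSL_{n+1}(F)`, the parabolic subgroups of the frame `Nodes.RGDTypeA`.
-/

set_option autoImplicit false
set_option linter.unusedSectionVars false

namespace Cfsg.Agent.H139.CC

open Module Matrix Cfsg.Agent.H624.Sl CoxeterSystem Cfsg.Agent.ChevalleyStructure.CoxeterGeom
  Cfsg.Agent.Tits.Roots Cfsg.Agent.Nodes.Reps Cfsg.Agent.Nodes.BNOf Cfsg.Agent.Nodes.Bruhat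
  Cfsg.Agent.Nodes.LeviDec Cfsg.Agent.Nodes.RGDLib Cfsg.Agent.Nodes.RootsA Cfsg.Agent.Nodes.RGDTypeA
  Cfsg.Agent.H139.PF Cfsg.Agent.H439.CC
open Cfsg.Agent.LieRecognition.BNCox (cA)
open scoped MatrixGroups

universe u

section lin

variable {F : Type*} [Field F] {V : Type*} [AddCommGroup V] [Module F V] [Module.Finite F V]

/-- a partial flag is contained in a complete flag -/
theorem exists_flg {n : ℕ} {K : Finset ℕ} (hn : n ∈ K) (U : ℕ → Submodule F V)
    (rk : ∀ k ∈ K, finrank F (U k) = k) (mono : ∀ k ∈ K, ∀ l ∈ K, k ≤ l → U k ≤ U l) :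
    ∃ x : Flg F V n, ∀ i : Fin (n + 1), (i : ℕ) ∈ K → x.x i = U i := by
  classical
  let R : ℕ → Submodule F V → Prop := fun i w => finrank F w = i ∧ (∀ k ∈ K, k ≤ i → U k ≤ w) ∧
    ∀ k ∈ K, i ≤ k → w ≤ U k
  have h0 : R 0 ⊥ := by
    refine ⟨finrank_bot F V, fun k hk hk0 => ?_, fun _ _ _ => bot_le⟩
    obtain rfl : k = 0 := Nat.le_zero.1 hk0
    exact (Submodule.finrank_eq_zero.1 (rk 0 hk)).le
  have hstep : ∀ i, i < n → ∀ w, R i w → ∃ w', R (i + 1) w' ∧ w ≤ w' := by
    rintro i hi w ⟨hw1, hw2, hw3⟩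
    have hne : (K.filter fun k => i + 1 ≤ k).Nonempty := ⟨n, Finset.mem_filter.2 ⟨hn, hi⟩⟩
    obtain ⟨k, hk⟩ : ∃ k, k = (K.filter fun k => i + 1 ≤ k).min' hne := ⟨_, rfl⟩
    have hkm := Finset.min'_mem _ hne
    rw [← hk, Finset.mem_filter] at hkm
    have hkle : ∀ l ∈ K, i + 1 ≤ l → k ≤ l := fun l hl hil => by
      rw [hk]
      exact Finset.min'_le _ _ (Finset.mem_filter.2 ⟨hl, hil⟩)
    have h1 : w ≤ U k := hw3 k hkm.1 (by omega)
    have h2 : w < U k := lt_of_le_of_ne h1 fun h => by
      have := rk k hkm.1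
      rw [← h, hw1] at this
      omega
    obtain ⟨v, hv, hv'⟩ := Set.exists_of_ssubset h2
    have h3 : w < w ⊔ Submodule.span F {v} := by
      refine lt_of_le_of_ne le_sup_left fun h => hv' ?_
      rw [SetLike.mem_coe, h]
      exact Submodule.mem_sup_right (Submodule.mem_span_singleton_self _)
    have h4 : finrank F (w ⊔ Submodule.span F {v} : Submodule F V) = i + 1 := by
      refine le_antisymm ?_ ?_
      · refine le_trans (Submodule.finrank_add_le_finrank_add_finrank _ _) ?_
        rw [hw1]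
        exact Nat.add_le_add_left (finrank_span_singleton (K := F) (v := v)
          (fun hv0 => hv' (by rw [hv0]; exact zero_mem w))).le _
      · have := Submodule.finrank_lt_finrank_of_lt h3
        omega
    have h5 : w ⊔ Submodule.span F {v} ≤ U k := sup_le h1 ((Submodule.span_singleton_le_iff_mem _ _).2 hv)
    refine ⟨_, ⟨h4, fun l hl hli => ?_, fun l hl hil => le_trans h5 (mono k hkm.1 l hl (hkle l hl hil))⟩, le_sup_left⟩
    rcases Nat.lt_or_ge i l with h6 | h6
    · obtain rfl : l = i + 1 := by omega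
      have h7 : k = i + 1 := le_antisymm (hkle _ hl le_rfl) hkm.2
      subst h7
      exact (Submodule.eq_of_le_of_finrank_eq h5 (by rw [h4, rk _ hl])).ge
    · exact le_trans (hw2 l hl h6) le_sup_left
  have hseq : ∀ m, m ≤ n → ∃ y : ℕ → Submodule F V, (∀ i ≤ m, R i (y i)) ∧ ∀ i < m, y i ≤ y (i + 1) := by
    intro m
    induction m with
    | zero =>
      intro _
      exact ⟨fun _ => ⊥, fun i hi => by rw [Nat.le_zero.1 hi]; exact h0, fun i hi => absurd hi (Nat.not_lt_zero _)⟩
    | succ m ih =>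
      intro hm
      obtain ⟨y, hy1, hy2⟩ := ih (by omega)
      obtain ⟨w', hw', hle⟩ := hstep m (by omega) (y m) (hy1 m le_rfl)
      refine ⟨Function.update y (m + 1) w', fun i hi => ?_, fun i hi => ?_⟩
      · by_cases h : i = m + 1
        · subst h
          rw [Function.update_self]
          exact hw'
        · rw [Function.update_of_ne h]
          exact hy1 i (by omega)
      · rw [Function.update_of_ne (by omega : i ≠ m + 1)]
        by_cases h : i = m
        · subst h
          rw [Function.update_self]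
          exact hle
        · rw [Function.update_of_ne (by omega)]
          exact hy2 i (by omega)
  obtain ⟨y, hy1, hy2⟩ := hseq n le_rfl
  have hmono : ∀ i j, i ≤ j → j ≤ n → y i ≤ y j := by
    intro i j hij
    induction hij with
    | refl => exact fun _ => le_rfl
    | step hij ih => exact fun hj => le_trans (ih (by omega)) (hy2 _ (by omega))
  refine ⟨⟨fun i => y i, fun i j hij => hmono i j hij (Nat.lt_succ_iff.1 j.2), fun i => (hy1 i (Nat.lt_succ_iff.1 i.2)).1⟩,
    fun i hi => le_antisymm ((hy1 i (Nat.lt_succ_iff.1 i.2)).2.2 i hi le_rfl)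
      ((hy1 i (Nat.lt_succ_iff.1 i.2)).2.1 i hi le_rfl)⟩

end lin

section psl

variable {F : Type u} [Field F] {n : ℕ} {W : Type*} [Group W] (cs : CoxeterSystem (cA n) W)
  {A : Fin n → Fin n → ℤ} (h : IsCartan (cA n) A)

theorem PJ_map {Y Y' I : Type*} [Group Y] [Group Y'] {M : CoxeterMatrix I} [Fintype I] [DecidableEq I]
    {V : Type*} [Group V] (ds : CoxeterSystem M V) {C : I → I → ℤ} (hC : IsCartan M C) (T : Subgroup Y)
    (X : (I → ℤ) → Subgroup Y) (f : Y →* Y') (J : Set I) :
    PJ ds hC (T.map f) (fun x => (X x).map f) J = (PJ ds hC T X J).map f := by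
  unfold PJ LJ VJ RGD.Sup
  rw [Subgroup.map_sup, Subgroup.map_sup, Subgroup.map_iSup, Subgroup.map_iSup]

theorem glE_toGL (g : SpecialLinearGroup (Fin (n + 1)) F) :
    glE F (n + 1) (SpecialLinearGroup.toGL g) = SpecialLinearGroup.toLin' g := by
  ext v
  rfl

theorem center_le_stK (J : Set (Fin n)) :
    Subgroup.center (SpecialLinearGroup (Fin (n + 1)) F) ≤ stK F n J := by
  intro z hz
  obtain ⟨r, -, hr⟩ := Matrix.SpecialLinearGroup.mem_center_iff.1 hz
  intro i _
  refine le_std fun a b hab hb => ?_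
  rw [← hr, Matrix.scalar_apply, Matrix.diagonal_apply] at hab
  by_cases h1 : a = b
  · rw [h1]
    exact hb
  · rw [if_neg h1] at hab
    exact absurd rfl hab

theorem mem_stK_JB {g : SpecialLinearGroup (Fin (n + 1)) F} {K : Finset ℕ} (hK : K ⊆ Finset.Icc 1 (n + 1)) :
    g ∈ stK F n (JB K ()) ↔ ∀ k ∈ K, (stdS F (n + 1) k).map (SpecialLinearGroup.toLin' g :
      (Fin (n + 1) → F) →ₗ[F] (Fin (n + 1) → F)) = stdS F (n + 1) k := by
  rw [mem_stK]
  constructor
  · intro hg k hk
    have h1 := Finset.mem_Icc.1 (hK hk)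
    rcases h1.2.lt_or_eq with h2 | h2
    · have h3 := hg ⟨k - 1, by omega⟩ (by
        unfold JB
        rw [Set.mem_ofPred_eq, not_not]
        simpa [Nat.sub_add_cancel h1.1] using hk)
      have h4 : (((⟨k - 1, by omega⟩ : Fin n).succ.castSucc : Fin (n + 2)) : ℕ) = k := by
        simp only [Fin.val_castSucc, Fin.val_succ]
        omega
      rw [smul_x, glE_toGL] at h3
      change (stdS F (n + 1) _).map _ = stdS F (n + 1) _ at h3
      rw [h4] at h3
      exact h3
    · subst h2
      have h5 : stdS F (n + 1) (n + 1) = ⊤ := by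
        apply Submodule.eq_top_of_finrank_eq
        rw [finrank_stdS le_rfl, finrank_fin_fun]
      rw [h5, Submodule.map_top]
      exact LinearEquiv.range _
  · intro hg i hi
    have h1 : (i : ℕ) + 1 ∈ K := by
      unfold JB at hi
      rw [Set.mem_ofPred_eq, not_not] at hi
      exact hi
    rw [smul_x, glE_toGL]
    exact hg _ h1

/-- **The flags for `PSL_{n+1}(F)`.** -/
theorem flags_psl [Finite F] {p : ℕ} [Fact p.Prime] [CharP F p] :
    Flags (F := F) (V := Fin (n + 1) → F) (fun _ => True) (SpecialLinearGroup.toLin' (n := Fin (n + 1)) (R := F))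
      (pr n F) (κ := Unit) (n + 1)
      (fun K _ => PJ cs h ((T (Fin (n + 1)) F).map (pr n F)) (fun x => (X F x).map (pr n F)) (JB K ())) where
  bot := trivial
  down := fun _ _ _ _ => trivial
  stab := fun _ _ _ => trivial
  surj := pr_surjective
  ker := ker_pr.le
  fix := by
    intro g K hK hn
    have hfin : Finite (ProjectiveSpecialLinearGroup (Fin (n + 1)) F) := Finite.of_surjective (pr n F) pr_surjective
    refine sum_pf_eq_fl (act := SpecialLinearGroup.toLin' (n := Fin (n + 1)) (R := F)) trivial pr_surjective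
      (fun _ _ _ => trivial) (fun h0 => by simpa using hK h0) (fun (_ : Unit) k => stdS F (n + 1) k)
      (fun _ k hk => finrank_stdS (Finset.mem_Icc.1 (hK hk)).2) ?_ (fun _ _ _ => trivial) ?_ ?_ (fun _ _ _ _ => rfl) g
    · intro _ k _ l _ hkl v hv
      rw [mem_stdS] at hv ⊢
      exact fun j hj => hv j (le_trans hkl hj)
    · intro _ g
      rw [PJ_map, ← stK_eq (p := p) cs h, ← mem_stK_JB hK]
      constructor
      · rintro ⟨g', hg', he⟩
        have h1 : g'⁻¹ * g ∈ stK F n (JB K ()) := by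
          apply center_le_stK
          rw [← ker_pr, MonoidHom.mem_ker, map_mul, map_inv, he, inv_mul_cancel]
        have h2 := mul_mem hg' h1
        rwa [mul_inv_cancel_left] at h2
      · intro hg
        exact ⟨g, hg, rfl⟩
    · intro U' h1 h2 _
      obtain ⟨x, hx⟩ := exists_flg hn U' h1 h2
      obtain ⟨g, hg⟩ := exists_sl x
      refine ⟨(), g, fun k hk => ?_⟩
      have hk' := (Finset.mem_Icc.1 (hK hk)).2
      rw [← hx ⟨k, by omega⟩ hk, ← hg, smul_x, glE_toGL]
      rfl

end psl

end Cfsg.Agent.H139.CC
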